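import Cfsg.Agent.H127.Co3.Glue8
import Cfsg.Agent.H542.Co3.X0E8

/-!
# S1920, `E8(q)`, `z` of type `D8` : the tables of `N0` in `chevE8.group F` (helper127)
-/

set_option autoImplicit false

open Module

namespace Cfsg.Agent.H127.Co3

open Cfsg.Lie Cfsg.Agent.H64.Co3 Cfsg.Agent.H13.Co3

/-- **GLUE8 for `E8(q)`** -/
theorem tabI_E8 {F : Type} [Field F] [Fintype F] {V : Type*} [AddCommGroup V] [Module F V] (h2 : (2 : F) ≠ 0)
    {Q : QuadraticForm F V} {P N0 : Subgroup ↥(chevE8.group F)} {z s : ↥(chevE8.group F)}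
    {ψ : ↥(Subgroup.normalizer (P : Set ↥(chevE8.group F))) →* Equiv.Perm (Fin 6)}
    {R : ↥(chevE8.group F) → (V ≃ₗ[F] V) → Prop} (C : CB P N0 z s ψ)
    (hz : finrank F ↥(LinearMap.ker (H392.KKL.rho chevE8 F z + 1)) = 128)
    (hR : ∀ n ∈ N0, ∀ M, R n M → finrank F ↥(adm Q M) =
      finrank F ↥(LinearMap.ker (H392.KKL.rho chevE8 F n + 1) ⊓ LinearMap.ker (H392.KKL.rho chevE8 F z - 1))) :
    TabI N0 Q z R :=
  tabI_of C (H392.KKL.rho chevE8 F) h2 (fun _ hg hg1 => H542.Co3.X0E8.mE8_two h2 hg hg1)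
    (fun _ hg => H542.Co3.X0E8.mE8_four_128 h2 hg C.z_sq hz) hz hR

end Cfsg.Agent.H127.Co3
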