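import Cfsg.Agent.H64.Co3.D8I

/-!
# Dimension tools for the (-1)-eigenspace of `Ad M` (S1920, helper127)

* `fr_eq`, `split` : dimension bookkeeping with an involution;
* `Cm M`, `Zm M` : the maps commuting / anticommuting with `M`;
* `exists_T_nonsq` : a semilinear involution.
-/

set_option autoImplicit false

open Module QuadraticMap

namespace Cfsg.Agent.H127.Co3

section General

variable {F E : Type*} [Field F] [AddCommGroup E] [Module F E] [FiniteDimensional F E]

theorem fr_eq {A B : Submodule F E} (f : E →ₗ[F] E) (hf : Function.Injective f)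
    (h1 : ∀ x ∈ A, f x ∈ B) (h2 : ∀ x ∈ B, f x ∈ A) : finrank F A = finrank F B := by
  apply le_antisymm
  · exact LinearMap.finrank_le_finrank_of_injective (f := f.restrict h1)
      (fun x y h => Subtype.ext (hf (congrArg Subtype.val h)))
  · exact LinearMap.finrank_le_finrank_of_injective (f := f.restrict h2)
      (fun x y h => Subtype.ext (hf (congrArg Subtype.val h)))

theorem split (h2 : (2 : F) ≠ 0) (τ : E →ₗ[F] E) (h : ∀ x, τ (τ x) = x) {N P R : Submodule F E}
    (hN : ∀ x ∈ N, τ x ∈ N) (hP : ∀ x, x ∈ P ↔ x ∈ N ∧ τ x = x) (hR : ∀ x, x ∈ R ↔ x ∈ N ∧ τ x = -x) :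
    finrank F N = finrank F P + finrank F R := by
  have e1 : P ⊔ R = N := by
    apply le_antisymm
    · exact sup_le (fun x hx => ((hP x).1 hx).1) (fun x hx => ((hR x).1 hx).1)
    · intro x hx
      have e : x = (2 : F)⁻¹ • (x + τ x) + (2 : F)⁻¹ • (x - τ x) := by
        rw [← smul_add, add_add_sub_cancel, ← two_smul F x, smul_smul, inv_mul_cancel₀ h2, one_smul]
      rw [e]
      refine Submodule.add_mem_sup ?_ ?_
      · rw [hP]
        refine ⟨N.smul_mem _ (N.add_mem hx (hN x hx)), ?_⟩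
        rw [map_smul, map_add, h, add_comm]
      · rw [hR]
        refine ⟨N.smul_mem _ (N.sub_mem hx (hN x hx)), ?_⟩
        rw [map_smul, map_sub, h, ← smul_neg, neg_sub]
  have e2 : P ⊓ R = ⊥ := by
    rw [eq_bot_iff]
    rintro x ⟨h3, h4⟩
    have h5 := ((hP x).1 h3).2
    have h6 := ((hR x).1 h4).2
    rw [h5] at h6
    rw [Submodule.mem_bot]
    have h7 : (2 : F) • x = 0 := by rw [two_smul]; nth_rw 1 [h6]; exact neg_add_cancel x
    exact (smul_eq_zero.1 h7).resolve_left h2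
  have e3 := Submodule.finrank_sup_add_finrank_inf_eq P R
  rw [e1, e2, finrank_bot, add_zero] at e3
  exact e3

end General

section Sim

variable {F V : Type*} [Field F] [AddCommGroup V] [Module F V]

/-- the maps which commute with `M` -/
def Cm (M : V ≃ₗ[F] V) : Submodule F (V →ₗ[F] V) where
  carrier := {S | ∀ v, M (S v) = S (M v)}
  add_mem' := by
    intro S T h1 h2 v
    rw [LinearMap.add_apply, LinearMap.add_apply, map_add, h1, h2]
  zero_mem' := by
    intro v
    rw [LinearMap.zero_apply, LinearMap.zero_apply, map_zero]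
  smul_mem' := by
    intro c S h1 v
    rw [LinearMap.smul_apply, LinearMap.smul_apply, map_smul, h1]

/-- the maps which anticommute with `M` -/
def Zm (M : V ≃ₗ[F] V) : Submodule F (V →ₗ[F] V) where
  carrier := {S | ∀ v, M (S v) = - S (M v)}
  add_mem' := by
    intro S T h1 h2 v
    rw [LinearMap.add_apply, LinearMap.add_apply, map_add, h1, h2, neg_add]
  zero_mem' := by
    intro v
    rw [LinearMap.zero_apply, LinearMap.zero_apply, map_zero, neg_zero]
  smul_mem' := by
    intro c S h1 v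
    rw [LinearMap.smul_apply, LinearMap.smul_apply, map_smul, h1, smul_neg]

theorem mem_Cm {M : V ≃ₗ[F] V} {S : V →ₗ[F] V} : S ∈ Cm M ↔ ∀ v, M (S v) = S (M v) := Iff.rfl

theorem mem_Zm {M : V ≃ₗ[F] V} {S : V →ₗ[F] V} : S ∈ Zm M ↔ ∀ v, M (S v) = - S (M v) := Iff.rfl

/-- `S ↦ l⁻¹ M S M` -/
def tau (M : V ≃ₗ[F] V) (l : F) : (V →ₗ[F] V) →ₗ[F] (V →ₗ[F] V) where
  toFun S := l⁻¹ • ((M : V →ₗ[F] V) ∘ₗ S ∘ₗ (M : V →ₗ[F] V))
  map_add' S T := by
    ext v
    simp
  map_smul' c S := by
    ext v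
    simp [smul_smul, mul_comm]

theorem tau_apply (M : V ≃ₗ[F] V) (l : F) (S : V →ₗ[F] V) (v : V) : tau M l S v = l⁻¹ • M (S (M v)) := rfl

/-- `S ↦ T S` -/
def lm (T : V →ₗ[F] V) : (V →ₗ[F] V) →ₗ[F] (V →ₗ[F] V) where
  toFun S := T ∘ₗ S
  map_add' S R := by
    ext v
    simp
  map_smul' c S := by
    ext v
    simp

theorem lm_apply (T S : V →ₗ[F] V) (v : V) : lm T S v = T (S v) := rfl

theorem lm_inj {T : V →ₗ[F] V} (hT : Function.Injective T) : Function.Injective (lm T) := by
  intro S R h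
  ext v
  exact hT (LinearMap.congr_fun h v)

variable {M : V ≃ₗ[F] V} {l : F}

theorem tau_tau (hl : l ≠ 0) (hM : ∀ v, M (M v) = l • v) (S : V →ₗ[F] V) : tau M l (tau M l S) = S := by
  ext v
  rw [tau_apply, tau_apply, map_smul, hM, hM, map_smul, smul_smul, smul_smul, smul_smul]
  have : l⁻¹ * l⁻¹ * l * l = 1 := by field_simp
  rw [this, one_smul]

theorem tau_eq_iff (hl : l ≠ 0) (hM : ∀ v, M (M v) = l • v) (S : V →ₗ[F] V) : tau M l S = S ↔ S ∈ Cm M := by
  constructor
  · intro h v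
    nth_rw 1 [← h]
    rw [tau_apply, map_smul, hM, smul_smul, inv_mul_cancel₀ hl, one_smul]
  · intro h
    ext v
    rw [tau_apply, h, hM, map_smul, smul_smul, inv_mul_cancel₀ hl, one_smul]

theorem tau_eq_neg_iff (hl : l ≠ 0) (hM : ∀ v, M (M v) = l • v) (S : V →ₗ[F] V) : tau M l S = -S ↔ S ∈ Zm M := by
  constructor
  · intro h v
    have h1 : S = -(tau M l S) := by rw [h, neg_neg]
    nth_rw 1 [h1]
    rw [LinearMap.neg_apply, map_neg, tau_apply, map_smul, hM, smul_smul, inv_mul_cancel₀ hl, one_smul]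
  · intro h
    ext v
    rw [tau_apply, h, hM, map_smul, smul_neg, smul_smul, inv_mul_cancel₀ hl, one_smul, LinearMap.neg_apply]

variable [FiniteDimensional F V]

theorem dim_CZ (h2 : (2 : F) ≠ 0) (hl : l ≠ 0) (hM : ∀ v, M (M v) = l • v) :
    finrank F V * finrank F V = finrank F (Cm M) + finrank F (Zm M) := by
  rw [← Module.finrank_linearMap F F V V, ← finrank_top F (V →ₗ[F] V)]
  refine split h2 (tau M l) (tau_tau hl hM) (fun x _ => Submodule.mem_top) ?_ ?_
  · intro S
    rw [tau_eq_iff hl hM]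
    exact ⟨fun h => ⟨Submodule.mem_top, h⟩, fun h => h.2⟩
  · intro S
    rw [tau_eq_neg_iff hl hM]
    exact ⟨fun h => ⟨Submodule.mem_top, h⟩, fun h => h.2⟩

theorem dim_C_eq_Z {T : V →ₗ[F] V} (hT : Function.Injective T) (h : ∀ v, M (T v) = - T (M v)) :
    finrank F (Cm M) = finrank F (Zm M) := by
  refine fr_eq (lm T) (lm_inj hT) ?_ ?_
  · intro S hS v
    rw [lm_apply, lm_apply, h, hS]
  · intro S hS v
    rw [lm_apply, lm_apply, h, hS, map_neg, neg_neg]

theorem exists_compl (hl : ¬ IsSquare l) (hM : ∀ v, M (M v) = l • v) :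
    ∃ U : Submodule F V, IsCompl U (U.map (M : V →ₗ[F] V)) := by
  obtain ⟨U, hU, hmax⟩ := (wellFounded_gt (α := Submodule F V)).has_min
    {U | Disjoint U (U.map (M : V →ₗ[F] V))} ⟨⊥, disjoint_bot_left⟩
  have hU' : ∀ x ∈ U, x ∈ U.map (M : V →ₗ[F] V) → x = 0 := Submodule.disjoint_def.1 hU
  refine ⟨U, hU, codisjoint_iff.2 ?_⟩
  by_contra hne
  set W := U ⊔ U.map (M : V →ₗ[F] V) with hW
  obtain ⟨v, hv⟩ : ∃ v, v ∉ W := by
    by_contra hcon
    push Not at hcon
    exact hne (eq_top_iff.2 fun x _ => hcon x)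
  have hMW : ∀ w ∈ W, M w ∈ W := by
    intro w hw
    rw [hW, Submodule.mem_sup] at hw
    obtain ⟨u, hu, w', hw', rfl⟩ := hw
    obtain ⟨u', hu', rfl⟩ := hw'
    rw [map_add, LinearEquiv.coe_coe, hM]
    refine W.add_mem ?_ (W.smul_mem _ ?_)
    · exact (le_sup_right : _ ≤ W) ⟨u, hu, rfl⟩
    · exact (le_sup_left : _ ≤ W) hu'
  refine hmax (U ⊔ Submodule.span F {v}) ?_ ?_
  · rw [Set.mem_ofPred_eq, Submodule.disjoint_def]
    intro x hx hx'
    rw [Submodule.mem_sup] at hx
    obtain ⟨u, hu, y, hy, rfl⟩ := hx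
    obtain ⟨a, rfl⟩ := Submodule.mem_span_singleton.1 hy
    obtain ⟨z, hz, hz'⟩ := hx'
    rw [SetLike.mem_coe, Submodule.mem_sup] at hz
    obtain ⟨u', hu', y', hy', rfl⟩ := hz
    obtain ⟨b, rfl⟩ := Submodule.mem_span_singleton.1 hy'
    rw [LinearEquiv.coe_coe, map_add, map_smul] at hz'
    have hw : a • v - b • M v ∈ W := by
      have e : a • v - b • M v = M u' - u := by
        rw [sub_eq_sub_iff_add_eq_add, add_comm (a • v), ← hz']
      rw [e]
      exact W.sub_mem ((le_sup_right : _ ≤ W) ⟨u', hu', rfl⟩) ((le_sup_left : _ ≤ W) hu)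
    have hab : a * a - b * b * l = 0 := by
      by_contra hab
      apply hv
      have h1 : a • (a • v - b • M v) + b • M (a • v - b • M v) = (a * a - b * b * l) • v := by
        rw [map_sub, map_smul, map_smul, hM]
        module
      have h2 : (a * a - b * b * l) • v ∈ W := by
        rw [← h1]
        exact W.add_mem (W.smul_mem _ hw) (W.smul_mem _ (hMW _ hw))
      exact (W.smul_mem_iff hab).1 h2
    have hb : b = 0 := by
      by_contra hb
      apply hl
      refine ⟨a / b, ?_⟩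
      field_simp
      linear_combination -hab
    have ha : a = 0 := by
      rw [hb] at hab
      have : a * a = 0 := by linear_combination hab
      exact mul_self_eq_zero.1 this
    rw [ha, zero_smul, add_zero] at hz' ⊢
    rw [hb, zero_smul, add_zero] at hz'
    exact hU' u hu ⟨u', hu', hz'⟩
  · show U < U ⊔ Submodule.span F {v}
    refine lt_of_le_of_ne le_sup_left ?_
    intro e
    apply hv
    have : v ∈ U := by
      rw [e]
      exact (le_sup_right : _ ≤ U ⊔ Submodule.span F {v}) (Submodule.mem_span_singleton_self v)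
    exact (le_sup_left : _ ≤ W) this

theorem exists_T_nonsq (hl : ¬ IsSquare l) (hM : ∀ v, M (M v) = l • v) :
    ∃ T : V →ₗ[F] V, Function.Injective T ∧ ∀ v, M (T v) = - T (M v) := by
  obtain ⟨U, hU⟩ := exists_compl hl hM
  set W := U.map (M : V →ₗ[F] V) with hW
  let T : V →ₗ[F] V := LinearMap.ofIsCompl hU U.subtype (-W.subtype)
  have h1 : ∀ u ∈ U, T u = u := fun u hu => LinearMap.ofIsCompl_apply_left hU ⟨u, hu⟩
  have h2 : ∀ w ∈ W, T w = -w := fun w hw => LinearMap.ofIsCompl_apply_right hU ⟨w, hw⟩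
  have hdec : ∀ v, ∃ u ∈ U, ∃ w ∈ W, u + w = v := fun v => by
    have : v ∈ U ⊔ W := by rw [hU.sup_eq_top]; trivial
    exact Submodule.mem_sup.1 this
  have hTT : ∀ v, T (T v) = v := by
    intro v
    obtain ⟨u, hu, w, hw, rfl⟩ := hdec v
    rw [map_add, h1 u hu, h2 w hw, map_add, map_neg, h1 u hu, h2 w hw, neg_neg]
  refine ⟨T, fun x y h => ?_, fun v => ?_⟩
  · rw [← hTT x, h, hTT]
  · obtain ⟨u, hu, w, hw, rfl⟩ := hdec v
    obtain ⟨u', hu', rfl⟩ := id hw
    have h3 : M u ∈ W := ⟨u, hu, rfl⟩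
    rw [map_add T, h1 u hu, h2 _ hw, LinearEquiv.coe_coe, map_add M, map_add M, map_neg M, hM, map_add T, h2 _ h3,
      map_smul T, h1 u' hu']
    module

end Sim

end Cfsg.Agent.H127.Co3
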